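import Mathlib
import Cfsg.Agent.H364.TwoRow
import Cfsg.Agent.H363.Master
import Cfsg.Agent.H364.Reduce

/-!
# The row theorem with two primes not adjacent to the characteristic, without exponents (helper370)

Variants of `H364.reduce` and `H364.TwoRow.main'` without a hypothesis on the orders of the `p`-elements.
-/

set_option autoImplicit false

namespace Cfsg.Agent.H370.AAM

open Subgroup Cfsg Cfsg.Agent.OrdDiv Cfsg.Agent.H364
open Cfsg.Agent.H363.Master Cfsg.Agent.H363.Frat

universe u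

/-- the output of the reduction -/
structure Red (G : Type u) [Group G] [Finite G] (p r s a b : ℕ) (K : Subgroup G) [K.Normal] (H : Subgroup (G ⧸ K)) :
    Prop where
  pK : ¬ p ∣ Nat.card K
  rK : ¬ r ∣ Nat.card K
  sK : ¬ s ∣ Nat.card K
  normal : H.Normal
  simple : IsSimpleGroup H
  nab : ¬ ∀ x y : H, x * y = y * x
  card_eq : Nat.card K * (H.index * Nat.card H) = Nat.card G
  out : H.index ∣ Nat.card (Cfsg.Out H)
  er : NoEdge H r p
  es : NoEdge H s p
  pH : p ∣ Nat.card H
  rs : r ∣ Nat.card H ∨ s ∣ Nat.card H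
  ar : ¬ r ∣ Nat.card H → a ∣ (Nat.card H).factorization p
  bs : ¬ s ∣ Nat.card H → b ∣ (Nat.card H).factorization p
  fr : r ∣ Nat.card H → p ^ H.index.factorization p ∣ r ^ (Nat.card H).factorization r - 1
  fs : s ∣ Nat.card H → p ^ H.index.factorization p ∣ s ^ (Nat.card H).factorization s - 1

/-- **Reduction without exponents.** -/
theorem reduce {G : Type u} [Group G] [Finite G] {p r s a b : ℕ} (hp : p.Prime) (hr : r.Prime) (hs : s.Prime)
    (hrp : r ≠ p) (hsp : s ≠ p) (hpG : p ∣ Nat.card G) (hrG : r ∣ Nat.card G) (hsG : s ∣ Nat.card G)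
    (hEr : NoEdge G r p) (hEs : NoEdge G s p)
    (ha : ∀ m, r ∣ p ^ m - 1 → a ∣ m) (hb : ∀ m, s ∣ p ^ m - 1 → b ∣ m)
    (hlcm : (Nat.card G).factorization p < Nat.lcm a b)
    (h1 : r ^ (Nat.card G).factorization r ≤ p ^ (Nat.card G).factorization p)
    (h2 : s ^ (Nat.card G).factorization s ≤ p ^ (Nat.card G).factorization p) :
    ∃ (K : Subgroup G) (_ : K.Normal) (H : Subgroup (G ⧸ K)), Red G p r s a b K H := by
  have hnr : NonAdj G r p := hEr
  have hns : NonAdj G s p := hEs
  obtain ⟨K, hKn, hKc, hKm⟩ := H363.Master.exists_core G p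
  have hpK : ¬ p ∣ Nat.card K := by
    rwa [Nat.coprime_comm, Nat.Prime.coprime_iff_not_dvd hp] at hKc
  have hrK := not_dvd_of_core hp hr hrp hnr hpK h1
  have hsK := not_dvd_of_core hp hs hsp hns hpK h2
  have hpQ := dvd_quotient hp hpK hpG
  have hrQ := dvd_quotient hr hrK hrG
  have hsQ := dvd_quotient hs hsK hsG
  have hnt : Nontrivial (G ⧸ K) := by
    rw [← Finite.one_lt_card_iff_nontrivial]
    exact lt_of_lt_of_le hp.one_lt (Nat.le_of_dvd Nat.card_pos hpQ)
  have hnr' := hnr.quotient K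
  have hns' := hns.quotient K
  have hcore : ∀ N : Subgroup (G ⧸ K), N.Normal → N ≠ ⊥ → p ∣ Nat.card N := by
    intro N hNn hN
    by_contra hcon
    apply hN
    apply H363.Master.core_quotient hKc hKm N hNn
    rw [Nat.coprime_comm, Nat.Prime.coprime_iff_not_dvd hp]
    exact hcon
  obtain ⟨N, hNn, hN, hmin⟩ := H363.Master.exists_minimal_normal (G ⧸ K)
  have hpN : p ∣ Nat.card N := hcore N hNn hN
  have hN0 : Nat.card N ≠ 0 := Nat.card_pos.ne'
  have hj1 : 0 < (Nat.card N).factorization p := hp.factorization_pos_of_dvd hN0 hpN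
  have hj2 : (Nat.card N).factorization p ≤ (Nat.card G).factorization p := by
    rw [← factorization_quotient hpK]
    exact (Nat.factorization_le_iff_dvd hN0 Nat.card_pos.ne').mpr (Subgroup.card_subgroup_dvd_card N) p
  have hkey : ∀ {t c : ℕ}, t.Prime → t ≠ p → t ∣ Nat.card (G ⧸ K) → NonAdj (G ⧸ K) t p →
      (∀ m, t ∣ p ^ m - 1 → c ∣ m) →
      (¬ t ∣ Nat.card N → c ∣ (Nat.card N).factorization p) ∧
        (t ∣ Nat.card N → p ^ N.index.factorization p ∣ t ^ (Nat.card N).factorization t - 1) := by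
    intro t c ht htp htG hE hc
    constructor
    · intro htN
      exact hc _ (dvd_pow_sub_one hp ht htp hE N htG htN)
    · intro _
      exact pow_dvd_of_normal hp ht htp.symm hE.symm N (Nat.ordProj_dvd _ _)
  have hkr := hkey hr hrp hrQ hnr' ha
  have hks := hkey hs hsp hsQ hns' hb
  have hor : r ∣ Nat.card N ∨ s ∣ Nat.card N := by
    by_contra hcon
    push Not at hcon
    have h3 := Nat.le_of_dvd hj1 (Nat.lcm_dvd (hkr.1 hcon.1) (hks.1 hcon.2))
    omega
  obtain ⟨T, m, _, hT, hm, ⟨e⟩⟩ := Cfsg.Agent.Lib.MinNormal.exists_mulEquiv_pi N hN hmin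
  have hcard : Nat.card N = Nat.card T ^ m := by
    rw [Nat.card_congr e.toEquiv, Nat.card_fun]
    simp
  have hTf : Finite T := by
    have hc : Nat.card T ≠ 0 := by
      intro h0
      rw [h0, zero_pow (by omega)] at hcard
      exact hN0 hcard
    exact Nat.finite_of_card_ne_zero hc
  have hdT : ∀ t, t.Prime → t ∣ Nat.card N → t ∣ Nat.card T := by
    intro t ht h
    rw [hcard] at h
    exact ht.dvd_of_dvd_pow h
  have hpT := hdT p hp hpN
  have hnab : ¬ ∀ a b : N, a * b = b * a := by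
    intro hab
    have hcomm0 : ∀ a b : T, a * b = b * a := by
      intro a b
      have h4 := hab (e.symm (fun _ => a)) (e.symm (fun _ => b))
      rw [← map_mul, ← map_mul] at h4
      exact congrFun (e.symm.injective h4) ⟨0, by omega⟩
    have hprime : (Nat.card T).Prime := by
      let : CommGroup T := { (inferInstance : Group T) with mul_comm := hcomm0 }
      exact IsSimpleGroup.prime_card
    have hpT' := (Nat.prime_dvd_prime_iff_eq hp hprime).mp hpT
    rcases hor with h | h
    · exact hrp (((Nat.prime_dvd_prime_iff_eq hr hprime).mp (hdT r hr h)).trans hpT'.symm)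
    · exact hsp (((Nat.prime_dvd_prime_iff_eq hs hprime).mp (hdT s hs h)).trans hpT'.symm)
  have key : ∀ t, t.Prime → t ≠ p → NonAdj (G ⧸ K) t p → t ∣ Nat.card N → m = 1 := by
    intro t ht htp hnt ht1
    by_contra hm1
    have : Fact p.Prime := ⟨hp⟩
    have : Fact t.Prime := ⟨ht⟩
    obtain ⟨a, ha⟩ := exists_prime_orderOf_dvd_card' t (hdT t ht ht1)
    obtain ⟨b, hb⟩ := exists_prime_orderOf_dvd_card' p hpT
    have h01 : (⟨0, by omega⟩ : Fin m) ≠ ⟨1, by omega⟩ := by
      intro h; exact absurd (congrArg Fin.val h) (by norm_num)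
    have hnN : NonAdj N t p := hnt.subgroup N
    have hc : Commute (e.symm (Pi.mulSingle ⟨0, by omega⟩ a)) (e.symm (Pi.mulSingle ⟨1, by omega⟩ b)) :=
      (Pi.mulSingle_commute (f := fun _ : Fin m => T) h01 a b).map e.symm
    have ho : ∀ (i : Fin m) (x : T), orderOf (e.symm (Pi.mulSingle i x)) = orderOf x := by
      intro i x
      rw [MulEquiv.orderOf_eq]
      exact orderOf_injective (MonoidHom.mulSingle (fun _ : Fin m => T) i)
        (fun x y hxy => Pi.mulSingle_injective (M := fun _ : Fin m => T) i hxy) x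
    have h4 := eq_one_of_commute ht hp htp hnN ⟨1, by rw [ho, pow_one, ha]⟩ ⟨1, by rw [ho, pow_one, hb]⟩ hc
      (by
        intro h5
        have := ho ⟨1, by omega⟩ b
        rw [h5, orderOf_one, hb] at this
        exact hp.one_lt.ne this)
    have := ho ⟨0, by omega⟩ a
    rw [h4, orderOf_one, ha] at this
    exact ht.one_lt.ne this
  have hm1 : m = 1 := by
    rcases hor with h | h
    · exact key r hr hrp hnr' h
    · exact key s hs hsp hns' h
  subst hm1
  have := hT
  have hsim : IsSimpleGroup N := (e.trans (MulEquiv.funUnique (Fin 1) T)).isSimpleGroup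
  have hcen : centralizer (N : Set (G ⧸ K)) = ⊥ := by
    by_contra hC
    have hpC := hcore (centralizer (N : Set (G ⧸ K))) inferInstance hC
    have hcomm : ∀ x ∈ N, ∀ y ∈ centralizer (N : Set (G ⧸ K)), Commute x y := fun x hx y hy =>
      (Subgroup.mem_centralizer_iff.1 hy x hx)
    rcases hor with h | h
    · exact H363.Master.false_of_subgroups hr hp hrp hnr' hcomm h hpC
    · exact H363.Master.false_of_subgroups hs hp hsp hns' hcomm h hpC
  have hGK : Nat.card K * Nat.card (G ⧸ K) = Nat.card G := by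
    rw [← Subgroup.card_mul_index K, Subgroup.index_eq_card]
  refine ⟨K, hKn, N, hpK, hrK, hsK, hNn, hsim, hnab, ?_, index_dvd_out N hnab hcen, hnr'.subgroup N, hns'.subgroup N,
    hpN, hor, hkr.1, hks.1, hkr.2, hks.2⟩
  rw [mul_comm N.index, Subgroup.card_mul_index, hGK]

open Cfsg.Agent.H902 Cfsg.Agent.H364.ArithU in
/-- **The general row**, without exponents, with the elimination of the simple groups not of Lie type in
characteristic `p` as a hypothesis. -/
theorem main {G : Type u} [Group G] [Finite G] {Y : Art.Sh} {p f r s b : ℕ} (hY : Art.Real Y p f (Nat.card G))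
    (hr : r.Prime) (hro : orderOf (p : ZMod r) = f * Art.DM Y) (h6 : 6 ≤ f * Art.DM Y) (hs : s.Prime)
    (hso : orderOf (p : ZMod s) = b) (hb : 1 ≤ b) (hsG : s ∣ Nat.card G) (hEr : NoEdge G r p) (hEs : NoEdge G s p)
    (hlcm : f * Art.NN Y < Nat.lcm (f * Art.DM Y) b)
    (h1r : r ^ (Nat.card G).factorization r ≤ p ^ (f * Art.NN Y))
    (h1s : s ^ (Nat.card G).factorization s ≤ p ^ (f * Art.NN Y))
    (hkey : ∀ (S : Type u) [Group S] [Finite S] [IsSimpleGroup S], (¬ ∀ x y : S, x * y = y * x) → ∀ δ,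
      p ^ δ ∣ Nat.card (Cfsg.Out S) → Nat.card S * p ^ δ ≤ Nat.card G → Nat.card S ∣ Nat.card G →
      (Nat.card S).factorization p + δ = f * Art.NN Y →
      (¬ r ∣ Nat.card S → f * Art.DM Y ∣ (Nat.card S).factorization p) →
      (¬ s ∣ Nat.card S → b ∣ (Nat.card S).factorization p) →
      (r ∣ Nat.card S → p ^ δ ∣ r ^ (Nat.card S).factorization r - 1) →
      (s ∣ Nat.card S → p ^ δ ∣ s ^ (Nat.card S).factorization s - 1) →
      (r ∣ Nat.card S ∨ s ∣ Nat.card S) → IsLieTypeChar p S ∨ Nat.card S = Nat.card G) :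
    ∃ (K : Subgroup G) (_ : K.Normal) (H : Subgroup (G ⧸ K)), IsSimpleGroup H ∧ (¬ ∀ x y : H, x * y = y * x) ∧
      (Nat.card H = Nat.card G ∨ ∃ X g, Cfsg.Agent.H365.Near.Exc X Y p g f ∧ Art.Real X p g (Nat.card H)) := by
  have hp := hY.hp
  have hf := hY.hf
  have hpos : ∀ {t k : ℕ}, t.Prime → orderOf (p : ZMod t) = k → 1 ≤ k → p ≠ t ∧ (∀ m, t ∣ p ^ m - 1 → k ∣ m) := by
    intro t k ht ho hk
    refine ⟨fun h => ?_, fun m hm => ?_⟩
    · subst h
      rw [ZMod.natCast_self] at ho
      have h1 : (0 : ZMod p) ^ k = 1 := by rw [← ho]; exact pow_orderOf_eq_one _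
      rw [zero_pow (by omega)] at h1
      have := Fact.mk hp
      exact zero_ne_one h1
    · rwa [Cfsg.Agent.Lib.Zsigmondy.dvd_pow_sub_one_iff hp.one_le, ho] at hm
  obtain ⟨hpr, hrm⟩ := hpos hr hro (by omega)
  obtain ⟨hps, hsm⟩ := hpos hs hso hb
  have hrG : r ∣ Nat.card G := hY.dvd_of_order_DM hr hro (by omega)
  have hN : (Nat.card G).factorization p = f * Art.NN Y := fac_self hY
  have hNN : 1 ≤ f * Art.NN Y := by
    by_contra hcon
    have h3 : f * Art.NN Y = 0 := by omega
    rw [h3, pow_zero] at h1r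
    have h4 : 0 < (Nat.card G).factorization r := hr.factorization_pos_of_dvd Nat.card_pos.ne' hrG
    have := Nat.one_lt_pow h4.ne' hr.one_lt
    omega
  have hpG : p ∣ Nat.card G := by
    by_contra hcon
    rw [Nat.factorization_eq_zero_of_not_dvd hcon] at hN
    omega
  obtain ⟨K, hKn, H, hR⟩ :=
    reduce hp hr hs hpr.symm hps.symm hpG hrG hsG hEr hEs hrm hsm (by rw [hN]; exact hlcm) (by rw [hN]; exact h1r)
      (by rw [hN]; exact h1s)
  have hHn := hR.normal
  have hHs := hR.simple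
  refine ⟨K, hKn, H, hHs, hR.nab, ?_⟩
  have hHG := hR.card_eq
  have hK0 : Nat.card K ≠ 0 := Nat.card_pos.ne'
  have hH0 : Nat.card H ≠ 0 := Nat.card_pos.ne'
  have hI0 : H.index ≠ 0 := Subgroup.index_ne_zero_of_finite
  set δ := H.index.factorization p with hδdef
  have hδ : (Nat.card H).factorization p + δ = (Nat.card G).factorization p := by
    rw [← hHG, Nat.factorization_mul hK0 (Nat.mul_ne_zero hI0 hH0), Finsupp.add_apply,
      Nat.factorization_eq_zero_of_not_dvd hR.pK, Nat.factorization_mul hI0 hH0, Finsupp.add_apply, hδdef]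
    omega
  have hpI : p ^ δ ∣ H.index := Nat.ordProj_dvd _ _
  have hHd : Nat.card H ∣ Nat.card G := by rw [← hHG]; exact (Dvd.intro_left _ rfl).trans (Dvd.intro_left _ rfl)
  have h3 : Nat.card H * p ^ δ ≤ Nat.card G := by
    calc Nat.card H * p ^ δ ≤ Nat.card H * H.index :=
          Nat.mul_le_mul_left _ (Nat.le_of_dvd (Nat.pos_of_ne_zero hI0) hpI)
      _ = H.index * Nat.card H := mul_comm _ _
      _ ≤ Nat.card K * (H.index * Nat.card H) := Nat.le_mul_of_pos_left _ (Nat.pos_of_ne_zero hK0)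
      _ = Nat.card G := hHG
  rcases hkey H hR.nab δ (hpI.trans hR.out) h3 hHd (by omega) hR.ar hR.bs hR.fr hR.fs hR.rs with hlie | hlie
  swap
  · exact Or.inl hlie
  obtain ⟨g, X, f', hg, hreal, hX⟩ := LieNam.lie_nam table hp hlie
  obtain ⟨c, hc1, hc2, hc3⟩ := OutLie.card_out hR.nab hg hreal hX
  have hI : OutDat X p f' H.index := ⟨c, by rw [← hc1]; exact hR.out, hc2, hc3⟩
  have hrH : r ∣ Nat.card H := by
    have h1 : r ∣ Nat.card K * (H.index * Nat.card H) := by rw [hHG]; exact hrG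
    exact ((hr.dvd_mul.1 ((hr.dvd_mul.1 h1).resolve_left hR.rK)).resolve_left
      (TwoRow.not_dvd_index hX hY hHd h6 hr hro hI))
  have hδ2 : f * Art.NN Y - f' * Art.NN X = δ := by
    have h1 := fac_self hX
    omega
  obtain ⟨h24, h6'⟩ := TwoRow.OutDat.dvd hX hI hpI
  rcases Cfsg.Agent.H365.Near.near_out hX hY hHd hr hro (by omega) hrH (by rw [hδ2]; exact h24)
      (by rw [hδ2]; exact h6') with ⟨rfl, rfl⟩ | h
  · left
    have h1 := hX.eq
    rw [← hY.eq] at h1
    exact Nat.eq_of_mul_eq_mul_left (Nat.pos_of_ne_zero hY.dd_ne) h1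
  · exact Or.inr ⟨X, f', h, hX⟩

end Cfsg.Agent.H370.AAM
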